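import Mathlib
import Cfsg.Agent.H384.RC.Core
import Cfsg.Agent.H610.RC.AltSmall
import Cfsg.Agent.H106.RC.Ari
import Cfsg.Agent.S0283
import Cfsg.Agent.S0297
import Cfsg.Agent.S0300
import Cfsg.Agent.S0303

/-!
# S3510 part B, box BN3: the groups `PΩ^-_{2m+2}(q)`, `q` odd, `m ≥ 1` (helper451 for helper384)

They are simple, not commutative, and odd order automorphisms have the regular cycle property if
the order is below the bound of the induction hypothesis.
-/

set_option autoImplicit false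

namespace Cfsg.Agent.H451.RC

open Cfsg Cfsg.Agent.H106.RC Cfsg.Agent.H384.RC Cfsg.Agent.H610.RC

/-- a simple group of order divisible by a proper power is not commutative -/
theorem not_comm_of_pow_dvd {S : Type*} [Group S] [Finite S] (hs : IsSimpleGroup S) {q k : ℕ}
    (hq : 2 ≤ q) (hk : 2 ≤ k) (h : q ^ k ∣ Nat.card S) : ¬ IsMulCommutative S := by
  intro hc
  let _ : CommGroup S := { ‹Group S› with mul_comm := hc.is_comm.comm }
  have hp : (Nat.card S).Prime := IsSimpleGroup.prime_card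
  have h2 : q * q ∣ Nat.card S := (by rw [← pow_two]; exact (pow_dvd_pow q hk).trans h)
  have h3 : q = Nat.card S := by
    rcases (Nat.dvd_prime hp).1 ((dvd_mul_right q q).trans h2) with h4 | h4
    · omega
    · exact h4
  rw [← h3] at h2
  have h4 : q * q ≤ q := Nat.le_of_dvd (by omega) h2
  nlinarith

/-- transport along an isomorphism -/
theorem inst_of_equiv {N : ℕ} (hIH : IH N) {Q P : Type} [Group Q] [Group P] [Finite P]
    (e : Q ≃* P) (hs : IsSimpleGroup P) (hn : ¬ IsMulCommutative P) (hcl : Cl P)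
    (h8 : ¬ Nonempty (P ≃* alternatingGroup (Fin 8))) :
    IsSimpleGroup Q ∧ ¬ IsMulCommutative Q ∧ (Nat.card Q < N → RCo Q) := by
  refine ⟨?_, ?_, fun hlt => ?_⟩
  · have : Nontrivial Q := e.toEquiv.nontrivial
    exact IsSimpleGroup.isSimpleGroup_of_surjective e.symm.toMonoidHom e.symm.surjective
  · intro hc
    apply hn
    constructor
    constructor
    intro a b
    apply e.symm.injective
    rw [map_mul, map_mul]
    exact hc.is_comm.comm _ _
  · rw [Nat.card_congr e.toEquiv] at hlt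
    exact (rco_ih hIH hs hn hcl h8 hlt).congr e.symm

/-- a finite field of order the square of the order of a finite field -/
theorem exists_field_sq (F : Type) [Field F] [Fintype F] :
    ∃ (K : Type) (_ : Field K) (_ : Fintype K), Fintype.card K = Fintype.card F ^ 2 := by
  obtain ⟨p, hp⟩ := CharP.exists F
  obtain ⟨k, hpp, hk⟩ := FiniteField.card F p
  have : Fact p.Prime := ⟨hpp⟩
  let _ : Fintype (GaloisField p (2 * k)) := Fintype.ofFinite _
  refine ⟨GaloisField p (2 * k), inferInstance, inferInstance, ?_⟩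
  have h := GaloisField.card p (2 * (k : ℕ)) (by have := k.pos; omega)
  rw [Nat.card_eq_fintype_card] at h
  rw [h, hk, ← pow_mul, mul_comm]

theorem psl2_card_dvd {K : Type} [Field K] [Fintype K] {q : ℕ} (hK : Fintype.card K = q ^ 2)
    (hq : 2 ≤ q) : q ^ 2 ∣ Nat.card (Matrix.ProjectiveSpecialLinearGroup (Fin 2) K) := by
  have hord := S0243.result hK 2 le_rfl
  have h4 : 2 ^ 2 ≤ q ^ 2 := Nat.pow_le_pow_left hq 2
  simp only [Fin.prod_univ_succ, Fin.prod_univ_zero] at hord
  simp only [Fin.coe_ofNat_eq_mod, Nat.zero_mod, pow_zero, Fin.succ_zero_eq_one, Nat.reduceMod,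
    pow_one, mul_one] at hord
  have hc : (Nat.gcd 2 (q ^ 2 - 1)).Coprime (q ^ 2) := by
    apply Nat.Coprime.coprime_dvd_left (Nat.gcd_dvd_right _ _)
    have h5 : (q ^ 2 - 1).Coprime ((q ^ 2 - 1) + 1) := by simp
    rwa [Nat.sub_add_cancel (by omega)] at h5
  have hc2 : (q ^ 2 - 1).Coprime (q ^ 2) := by
    have h5 : (q ^ 2 - 1).Coprime ((q ^ 2 - 1) + 1) := by simp
    rwa [Nat.sub_add_cancel (by omega)] at h5
  apply hc2.symm.dvd_of_dvd_mul_left
  apply hc.symm.dvd_of_dvd_mul_left
  rw [hord]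
  refine Dvd.dvd.mul_left ?_ _
  refine ⟨q ^ 2 - 1, ?_⟩
  rw [Nat.mul_sub, mul_one, ← pow_two]

theorem psu4_card_dvd {K : Type} [Field K] [Fintype K] {q : ℕ} (hK : Fintype.card K = q ^ 2) :
    q ^ 6 ∣ Nat.card (PSU 4 K q) := by
  have hq : 2 ≤ q := by
    have := two_le_card K
    rw [hK] at this
    by_contra hlt
    push Not at hlt
    interval_cases q <;> omega
  have hord := S0280.result hK 4 (by norm_num)
  have hc : (Nat.gcd 4 (q + 1) * (q + 1)).Coprime (q ^ 6) := by
    have h1 : (q + 1).Coprime (q ^ 6) := by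
      have h2 := cop_of_dvd_add (q := q) (d := q + 1) 1 one_ne_zero (by rw [pow_one])
      exact Nat.Coprime.pow_right 6 h2
    refine Nat.Coprime.mul_left ?_ h1
    exact Nat.Coprime.coprime_dvd_left (Nat.gcd_dvd_right _ _) h1
  apply hc.symm.dvd_of_dvd_mul_left
  rw [mul_assoc, hord]
  exact Dvd.dvd.mul_right (pow_dvd_pow q (by norm_num)) _

theorem omegaMinus_card_dvd {F : Type} [Field F] [Fintype F] {m : ℕ} (hm : 4 ≤ m) (a b : F)
    (hab : ∀ z₁ z₂ : F, z₁ ^ 2 + a * z₁ * z₂ + b * z₂ ^ 2 = 0 → z₁ = 0 ∧ z₂ = 0) :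
    Fintype.card F ^ (m * (m - 1)) ∣ Nat.card (POmega F (quadFormMinus (m - 1) F a b)) := by
  have hq := two_le_card F
  have hord := S0294.result (F := F) rfl m hm a b hab
  have hc : (Nat.gcd 4 (Fintype.card F ^ m + 1)).Coprime (Fintype.card F ^ (m * (m - 1))) := by
    apply Nat.Coprime.pow_right
    exact cop_of_dvd_add m (by omega) (Nat.gcd_dvd_right _ _)
  apply hc.symm.dvd_of_dvd_mul_left
  rw [hord, mul_assoc]
  exact dvd_mul_right _ _

theorem psl2_not_alt8 {K : Type} [Field K] [Fintype K] :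
    ¬ Nonempty (Matrix.ProjectiveSpecialLinearGroup (Fin 2) K ≃* alternatingGroup (Fin 8)) := by
  rintro ⟨e⟩
  have h1 := psl_exc le_rfl (Or.inr (Or.inr ⟨e⟩))
  have hord := S0243.result (F := K) rfl 2 le_rfl
  have h8 := card_alt 8 (by norm_num)
  rw [← Nat.card_congr e.toEquiv] at h8
  norm_num [Nat.factorial] at h8
  simp only [Fin.prod_univ_succ, Fin.prod_univ_zero] at hord
  rcases h1 with ⟨-, h | h | h⟩ | ⟨h, -⟩
  · rw [h] at hord
    norm_num at hord
    omega
  · rw [h] at hord
    norm_num at hord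
    omega
  · rw [h] at hord
    norm_num at hord
    omega
  · omega

/-- **box BN3, minus type** -/
theorem inst_minus {N : ℕ} (hIH : IH N) {F : Type} [Field F] [Fintype F]
    (hodd : Odd (Fintype.card F)) {m : ℕ} (hm : 1 ≤ m) (a b : F)
    (hab : ∀ z₁ z₂ : F, z₁ ^ 2 + a * z₁ * z₂ + b * z₂ ^ 2 = 0 → z₁ = 0 ∧ z₂ = 0) :
    IsSimpleGroup (POmega F (quadFormMinus m F a b)) ∧
      ¬ IsMulCommutative (POmega F (quadFormMinus m F a b)) ∧
      (Nat.card (POmega F (quadFormMinus m F a b)) < N → RCo (POmega F (quadFormMinus m F a b))) := by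
  have hq3 : 3 ≤ Fintype.card F := by
    have := two_le_card F
    obtain ⟨k, hk⟩ := hodd
    omega
  obtain ⟨K, _, _, hK⟩ := exists_field_sq F
  have hK9 : 3 ^ 2 ≤ Fintype.card K := by rw [hK]; exact Nat.pow_le_pow_left hq3 2
  rcases (by omega : m = 1 ∨ m = 2 ∨ 3 ≤ m) with rfl | rfl | h3
  · obtain ⟨e⟩ := S0300.result (K := K) rfl hK a b hab
    have hs : IsSimpleGroup (Matrix.ProjectiveSpecialLinearGroup (Fin 2) K) :=
      Matrix.ProjectiveSpecialLinearGroup.rank_two_simple
        (by rw [Nat.card_eq_fintype_card]; omega)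
    refine inst_of_equiv hIH e hs
      (not_comm_of_pow_dvd hs (q := Fintype.card F) (by omega) le_rfl
        (psl2_card_dvd hK (by omega))) ?_ psl2_not_alt8
    exact Or.inl ⟨K, inferInstance, inferInstance, 2, le_rfl, fun _ => by omega,
      ⟨MulEquiv.refl _⟩⟩
  · obtain ⟨e⟩ := S0303.result (K := K) rfl hK a b hab
    have hnq : ¬ (4 = 3 ∧ Fintype.card F = 2) := by omega
    have hs : IsSimpleGroup (PSU 4 K (Fintype.card F)) := S0283.result hK 4 (by norm_num) hnq
    refine inst_of_equiv hIH e hs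
      (not_comm_of_pow_dvd hs (q := Fintype.card F) (k := 6) (by omega) (by norm_num)
        (psu4_card_dvd hK)) ?_ ?_
    · exact Or.inr (Or.inr (Or.inl ⟨K, inferInstance, inferInstance, 4, Fintype.card F, hK,
        by norm_num, hnq, ⟨MulEquiv.refl _⟩⟩))
    · intro h
      exact psu_not_exc hK (by norm_num) hnq (Or.inr (Or.inr h))
  · have hs := S0297.result (F := F) (m + 1) (by omega) a b hab
    have hex := pomegaMinus_not_exc (F := F) (m := m + 1) (by omega) a b hab
    have hd := omegaMinus_card_dvd (F := F) (m := m + 1) (by omega) a b hab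
    rw [Nat.add_sub_cancel] at hs hex hd
    refine inst_of_equiv hIH (MulEquiv.refl _) hs
      (not_comm_of_pow_dvd hs (by omega) (by nlinarith) hd) ?_
      (fun h => hex (Or.inr (Or.inr h)))
    refine Or.inr (Or.inr (Or.inr (Or.inr (Or.inr
      ⟨F, inferInstance, inferInstance, m + 1, a, b, by omega, hab, ⟨MulEquiv.refl _⟩⟩))))

end Cfsg.Agent.H451.RC
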